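import Cfsg.Agent.Lib.H49.NormSurj
import Cfsg.Agent.Lib.H48.SimMatrix
import Cfsg.Agent.Lib.H17.DicksonInv
import Cfsg.Agent.Lib.H48.QuadSplit

set_option autoImplicit false
set_option linter.unusedSectionVars false

/-! Over a finite field, a matrix similar to its inverse and without eigenvalues `±1` preserves a
non-degenerate symmetric form and a non-degenerate alternating form, and if its order is odd a
non-degenerate quadratic form. -/

namespace H49.InvForm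

open Matrix

variable {ι : Type} [Fintype ι] [DecidableEq ι] {F : Type*} [Field F] [Finite F]

theorem exists_form (A Ai : Matrix ι ι F) (hAi : A * Ai = 1) (hc : IsConj A Ai) (ε : F)
    (hε : ε = 1 ∨ ε = -1) (h2 : IsUnit (A * A - 1)) :
    ∃ J : Matrix ι ι F, IsUnit J ∧ Jᵀ = ε • J ∧ Aᵀ * J * A = J := by
  have hεε : ε * ε = 1 := by rcases hε with rfl | rfl <;> ring
  have a1 : A * Ai = 1 := hAi
  have a2 : Ai * A = 1 := mul_eq_one_comm.mp a1
  have hct : IsConj A Aiᵀ := hc.trans (H48.SimMatrix.isConj_transpose Ai)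
  obtain ⟨x, hx⟩ := hct
  have hx' : (x : Matrix ι ι F) * A = Aiᵀ * x := hx
  set X := (x : Matrix ι ι F) with hX
  set Xi := ((x⁻¹ : (Matrix ι ι F)ˣ) : Matrix ι ι F) with hXi
  have e1 : X * Xi = 1 := x.mul_inv
  have e2 : Xi * X = 1 := x.inv_mul
  have t1 : Xᵀ * Xiᵀ = 1 := by rw [← Matrix.transpose_mul, e2, Matrix.transpose_one]
  have t2 : Xiᵀ * Xᵀ = 1 := by rw [← Matrix.transpose_mul, e1, Matrix.transpose_one]
  have b1 : Aᵀ * Aiᵀ = 1 := by rw [← Matrix.transpose_mul, a2, Matrix.transpose_one]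
  have b2 : Aiᵀ * Aᵀ = 1 := by rw [← Matrix.transpose_mul, a1, Matrix.transpose_one]
  have hinvX : Aᵀ * X * A = X := by
    rw [mul_assoc, hx', ← mul_assoc, b1, one_mul]
  have hinvXt : Aᵀ * Xᵀ * A = Xᵀ := by
    have := congrArg Matrix.transpose hinvX
    rw [Matrix.transpose_mul, Matrix.transpose_mul, Matrix.transpose_transpose] at this
    rw [mul_assoc]; exact this
  let τ : Matrix ι ι F → Matrix ι ι F := fun y => Xi * yᵀ * X
  have hadd : ∀ x y, τ (x + y) = τ x + τ y := by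
    intro x y
    simp only [τ, Matrix.transpose_add]
    noncomm_ring
  have hmul : ∀ x y, τ (x * y) = τ y * τ x := by
    intro x y
    simp only [τ, Matrix.transpose_mul]
    calc Xi * (yᵀ * xᵀ) * X = Xi * yᵀ * 1 * (xᵀ * X) := by noncomm_ring
      _ = Xi * yᵀ * (X * Xi) * (xᵀ * X) := by rw [e1]
      _ = _ := by noncomm_ring
  have h1 : τ 1 = 1 := by simp only [τ, Matrix.transpose_one, mul_one, e2]
  set u : Matrix ι ι F := Xi * Xᵀ with hu
  set ui : Matrix ι ι F := Xiᵀ * X with hui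
  have u1 : u * ui = 1 := by
    rw [hu, hui]
    calc Xi * Xᵀ * (Xiᵀ * X) = Xi * (Xᵀ * Xiᵀ) * X := by noncomm_ring
      _ = 1 := by rw [t1, mul_one, e2]
  have u2 : ui * u = 1 := mul_eq_one_comm.mp u1
  have hτA : τ A = Ai := by
    simp only [τ]
    calc Xi * Aᵀ * X = Xi * (Aᵀ * X * A) * Ai := by
          calc Xi * Aᵀ * X = Xi * Aᵀ * X * 1 := (mul_one _).symm
            _ = Xi * Aᵀ * X * (A * Ai) := by rw [a1]
            _ = _ := by noncomm_ring
      _ = Ai := by rw [hinvX, e2, one_mul]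
  have hτAi : τ Ai = A := by
    have h3 : τ (A * Ai) = 1 := by rw [a1, h1]
    rw [hmul, hτA] at h3
    calc τ Ai = τ Ai * (Ai * A) := by rw [a2, mul_one]
      _ = (τ Ai * Ai) * A := by noncomm_ring
      _ = A := by rw [h3, one_mul]
  have hτu : τ u = ui := by
    simp only [τ, hu, Matrix.transpose_mul, Matrix.transpose_transpose, hui]
    calc Xi * (X * Xiᵀ) * X = (Xi * X) * Xiᵀ * X := by noncomm_ring
      _ = Xiᵀ * X := by rw [e2, one_mul]
  have hτui : τ ui = u := by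
    simp only [τ, hui, Matrix.transpose_mul, Matrix.transpose_transpose, hu]
    calc Xi * (Xᵀ * Xi) * X = Xi * Xᵀ * (Xi * X) := by noncomm_ring
      _ = Xi * Xᵀ := by rw [e2, mul_one]
  -- commutation
  have hAu : A * u = u * A := by
    -- X⁻¹ Xᵀ A = X⁻¹ A⁻ᵀ Xᵀ = A X⁻¹ Xᵀ
    have h3 : Xᵀ * A = Aiᵀ * Xᵀ := by
      calc Xᵀ * A = (Aiᵀ * Aᵀ) * Xᵀ * A := by rw [b2, one_mul]
        _ = Aiᵀ * (Aᵀ * Xᵀ * A) := by noncomm_ring
        _ = _ := by rw [hinvXt]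
    have h4 : Xi * Aiᵀ = A * Xi := by
      calc Xi * Aiᵀ = Xi * Aiᵀ * (X * Xi) := by rw [e1, mul_one]
        _ = Xi * (Aiᵀ * X) * Xi := by noncomm_ring
        _ = Xi * (X * A) * Xi := by rw [hx']
        _ = (Xi * X) * A * Xi := by noncomm_ring
        _ = A * Xi := by rw [e2, one_mul]
    rw [hu]
    calc A * (Xi * Xᵀ) = (A * Xi) * Xᵀ := by noncomm_ring
      _ = (Xi * Aiᵀ) * Xᵀ := by rw [h4]
      _ = Xi * (Aiᵀ * Xᵀ) := by noncomm_ring
      _ = Xi * (Xᵀ * A) := by rw [h3]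
      _ = _ := by noncomm_ring
  have comm_inv : ∀ {P Pi R : Matrix ι ι F}, P * Pi = 1 → Pi * P = 1 → P * R = R * P →
      Pi * R = R * Pi := by
    intro P Pi R p1 p2 h
    calc Pi * R = Pi * R * (P * Pi) := by rw [p1, mul_one]
      _ = Pi * (R * P) * Pi := by noncomm_ring
      _ = Pi * (P * R) * Pi := by rw [h]
      _ = (Pi * P) * R * Pi := by noncomm_ring
      _ = R * Pi := by rw [p2, one_mul]
  have hAiu : Ai * u = u * Ai := comm_inv a1 a2 hAu
  have hAui : A * ui = ui * A := (comm_inv u1 u2 hAu.symm).symm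
  have hAiui : Ai * ui = ui * Ai := comm_inv a1 a2 hAui
  let S : Set (Matrix ι ι F) := {A, Ai, u, ui}
  have hcomm : ∀ x ∈ S, ∀ y ∈ S, x * y = y * x := by
    rintro x (rfl | rfl | rfl | rfl) y (rfl | rfl | rfl | rfl)
    · rfl
    · rw [a1, a2]
    · exact hAu
    · exact hAui
    · rw [a1, a2]
    · rfl
    · exact hAiu
    · exact hAiui
    · exact hAu.symm
    · exact hAiu.symm
    · rfl
    · rw [u1, u2]
    · exact hAui.symm
    · exact hAiui.symm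
    · rw [u1, u2]
    · rfl
  have mA : A ∈ Subring.closure S := Subring.subset_closure (by simp [S])
  have mAi : Ai ∈ Subring.closure S := Subring.subset_closure (by simp [S])
  have mu : u ∈ Subring.closure S := Subring.subset_closure (by simp [S])
  have mui : ui ∈ Subring.closure S := Subring.subset_closure (by simp [S])
  have hstab : ∀ x ∈ S, τ x ∈ Subring.closure S := by
    rintro x (rfl | rfl | rfl | rfl)
    · rw [hτA]; exact mAi
    · rw [hτAi]; exact mA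
    · rw [hτu]; exact mui
    · rw [hτui]; exact mu
  have hinv : ∀ x ∈ S, τ (τ x) = x := by
    rintro x (rfl | rfl | rfl | rfl)
    · rw [hτA, hτAi]
    · rw [hτAi, hτA]
    · rw [hτu, hτui]
    · rw [hτui, hτu]
  have hθ : IsUnit (A - τ A) := by
    rw [hτA]
    have h3 : A - Ai = Ai * (A * A - 1) := by
      calc A - Ai = (Ai * A) * A - Ai := by rw [a2, one_mul]
        _ = _ := by noncomm_ring
    rw [h3]
    exact IsUnit.mul ⟨⟨Ai, A, a2, a1⟩, rfl⟩ h2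
  set z := ε • u with hz
  have mz : z ∈ Subring.closure S := by
    rw [hz]
    rcases hε with rfl | rfl
    · rw [one_smul]; exact mu
    · rw [neg_smul, one_smul]; exact neg_mem mu
  have hτz : τ z = ε • ui := by
    simp only [τ, hz, Matrix.transpose_smul, Matrix.mul_smul, Matrix.smul_mul]
    rw [← hτu]
  have hzz : z * τ z = 1 := by
    rw [hτz, hz, Matrix.smul_mul, Matrix.mul_smul, smul_smul, hεε, one_smul, u1]
  have hfin : Finite (Matrix ι ι F) := by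
    have := Fintype.ofFinite F
    infer_instance
  obtain ⟨a, haS, hau, ha⟩ := NormSurj.nc_hilbert90 τ hadd hmul h1 S hcomm hstab hinv A mA hθ z mz
    hzz
  have haA : a * A = A * a := NormSurj.closure_comm S hcomm haS mA
  have mτa : τ a ∈ Subring.closure S := NormSurj.tau_mem_closure τ hadd hmul h1 S hstab haS
  have huτ : τ a * u = u * τ a := NormSurj.closure_comm S hcomm mτa mu
  refine ⟨X * a, x.isUnit.mul hau, ?_, ?_⟩
  · rw [Matrix.transpose_mul]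
    calc aᵀ * Xᵀ = X * (Xi * aᵀ * X) * (Xi * Xᵀ) := by
          calc aᵀ * Xᵀ = 1 * aᵀ * 1 * Xᵀ := by rw [one_mul, mul_one]
            _ = (X * Xi) * aᵀ * (X * Xi) * Xᵀ := by rw [e1]
            _ = _ := by noncomm_ring
      _ = X * (τ a * u) := by simp only [τ, hu]; noncomm_ring
      _ = X * (u * τ a) := by rw [huτ]
      _ = (ε * ε) • (X * (u * τ a)) := by rw [hεε, one_smul]
      _ = ε • (X * (z * τ a)) := by
          rw [hz, Matrix.smul_mul, Matrix.mul_smul, smul_smul]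
      _ = ε • (X * a) := by rw [← ha]
  · calc Aᵀ * (X * a) * A = Aᵀ * X * (a * A) := by noncomm_ring
      _ = (Aᵀ * X * A) * a := by rw [haA]; noncomm_ring
      _ = X * a := by rw [hinvX]

/-- Existence of an alternating invariant form. -/
theorem exists_alt (A Ai : Matrix ι ι F) (hAi : A * Ai = 1) (hc : IsConj A Ai)
    (h2 : IsUnit (A * A - 1)) (h1 : IsUnit (A - 1)) :
    ∃ J : Matrix ι ι F, IsUnit J ∧ (∀ v, v ⬝ᵥ (J *ᵥ v) = 0) ∧ Aᵀ * J * A = J := by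
  obtain ⟨J, hJu, hJt, hJA⟩ := exists_form A Ai hAi hc (-1) (Or.inr rfl) h2
  refine ⟨J, hJu, ?_, hJA⟩
  have hskew : ∀ v w, v ⬝ᵥ (J *ᵥ w) = - (w ⬝ᵥ (J *ᵥ v)) := by
    intro v w
    rw [Matrix.dotProduct_mulVec, ← Matrix.mulVec_transpose, hJt, dotProduct_comm, neg_smul,
      one_smul, Matrix.neg_mulVec, dotProduct_neg]
  by_cases hc2 : (2 : F) = 0
  · have : CharP F 2 := CharTwo.of_one_ne_zero_of_two_eq_zero one_ne_zero hc2
    have hadd : ∀ v w, (v + w) ⬝ᵥ (J *ᵥ (v + w)) = v ⬝ᵥ (J *ᵥ v) + w ⬝ᵥ (J *ᵥ w) := by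
      intro v w
      rw [Matrix.mulVec_add, add_dotProduct, dotProduct_add, dotProduct_add, hskew w v]
      ring
    have hinvA : ∀ v, (A *ᵥ v) ⬝ᵥ (J *ᵥ (A *ᵥ v)) = v ⬝ᵥ (J *ᵥ v) := by
      intro v
      have h3 : v ⬝ᵥ ((Aᵀ * J * A) *ᵥ v) = (A *ᵥ v) ⬝ᵥ (J *ᵥ (A *ᵥ v)) := by
        rw [← Matrix.mulVec_mulVec, ← Matrix.mulVec_mulVec, Matrix.dotProduct_mulVec,
          Matrix.vecMul_transpose]
      rw [← h3, hJA]
    intro v
    obtain ⟨w, rfl⟩ : ∃ w, (A - 1) *ᵥ w = v := by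
      obtain ⟨y, hy⟩ := h1
      refine ⟨((y⁻¹ : (Matrix ι ι F)ˣ) : Matrix ι ι F) *ᵥ v, ?_⟩
      rw [← hy, Matrix.mulVec_mulVec, Units.mul_inv, Matrix.one_mulVec]
    have h4 := hadd ((A - 1) *ᵥ w) w
    have h5 : (A - 1) *ᵥ w + w = A *ᵥ w := by
      rw [Matrix.sub_mulVec, Matrix.one_mulVec, sub_add_cancel]
    rw [h5, hinvA] at h4
    exact left_eq_add.mp (by rw [add_comm]; exact h4)
  · intro v
    have := hskew v v
    have h3 : (2 : F) * (v ⬝ᵥ (J *ᵥ v)) = 0 := by linear_combination this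
    exact (mul_eq_zero.mp h3).resolve_left hc2

/-- symmetric matrix (alternating in characteristic two) is a polar form -/
theorem exists_quad (J : Matrix ι ι F) (hJt : Jᵀ = J)
    (h : (2 : F) = 0 → ∀ v, v ⬝ᵥ (J *ᵥ v) = 0) :
    ∃ Q : QuadraticForm F (ι → F), ∀ u v, QuadraticMap.polar Q u v = u ⬝ᵥ (J *ᵥ v) := by
  -- `J = K + Kᵀ`
  obtain ⟨K, hK⟩ : ∃ K : Matrix ι ι F, J = K + Kᵀ := by
    by_cases hc2 : (2 : F) = 0
    · have hd : ∀ i, J i i = 0 := by
        intro i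
        have := h hc2 (Pi.single i 1)
        simpa using this
      exact H17.DicksonInv.exists_half J hJt hd
    · refine ⟨(2 : F)⁻¹ • J, ?_⟩
      rw [Matrix.transpose_smul, hJt, ← add_smul, ← two_mul, mul_inv_cancel₀ hc2, one_smul]
  let β : LinearMap.BilinForm F (ι → F) := Matrix.toBilin' K
  have hβ : ∀ u v, β u v = u ⬝ᵥ (K *ᵥ v) := fun u v => Matrix.toBilin'_apply' K u v
  refine ⟨LinearMap.BilinMap.toQuadraticMap β, fun u v => ?_⟩
  rw [LinearMap.BilinMap.polar_toQuadraticMap, hβ, hβ, hK, Matrix.add_mulVec, dotProduct_add]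
  congr 1
  rw [Matrix.mulVec_transpose, dotProduct_comm u, ← Matrix.dotProduct_mulVec]

/-- Existence of a quadratic invariant form. -/
theorem exists_quad_form (A Ai : Matrix ι ι F) (hAi : A * Ai = 1) (hc : IsConj A Ai)
    (h2 : IsUnit (A * A - 1)) (h1 : IsUnit (A - 1)) (N : ℕ) (hN : (N : F) ≠ 0) (hAN : A ^ N = 1) :
    ∃ Q : QuadraticForm F (ι → F), H48.QuadSplit.ND Q ∧ ∀ v, Q (A *ᵥ v) = Q v := by
  obtain ⟨J, hJu, hJt, hJA⟩ := exists_form A Ai hAi hc 1 (Or.inl rfl) h2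
  rw [one_smul] at hJt
  have hsymm : ∀ v w, v ⬝ᵥ (J *ᵥ w) = (w ⬝ᵥ (J *ᵥ v)) := by
    intro v w
    rw [Matrix.dotProduct_mulVec, ← Matrix.mulVec_transpose, hJt, dotProduct_comm]
  have hinvA' : ∀ v w, (A *ᵥ v) ⬝ᵥ (J *ᵥ (A *ᵥ w)) = v ⬝ᵥ (J *ᵥ w) := by
    intro v w
    have h3 : v ⬝ᵥ ((Aᵀ * J * A) *ᵥ w) = (A *ᵥ v) ⬝ᵥ (J *ᵥ (A *ᵥ w)) := by
      rw [← Matrix.mulVec_mulVec, ← Matrix.mulVec_mulVec, Matrix.dotProduct_mulVec,
        Matrix.vecMul_transpose]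
    rw [← h3, hJA]
  have halt : (2 : F) = 0 → ∀ v, v ⬝ᵥ (J *ᵥ v) = 0 := by
    intro hc2
    have : CharP F 2 := CharTwo.of_one_ne_zero_of_two_eq_zero one_ne_zero hc2
    have hadd : ∀ v w, (v + w) ⬝ᵥ (J *ᵥ (v + w)) = v ⬝ᵥ (J *ᵥ v) + w ⬝ᵥ (J *ᵥ w) := by
      intro v w
      rw [Matrix.mulVec_add, add_dotProduct, dotProduct_add, dotProduct_add, hsymm w v]
      linear_combination (v ⬝ᵥ (J *ᵥ w)) * hc2
    intro v
    obtain ⟨w, rfl⟩ : ∃ w, (A - 1) *ᵥ w = v := by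
      obtain ⟨y, hy⟩ := h1
      refine ⟨((y⁻¹ : (Matrix ι ι F)ˣ) : Matrix ι ι F) *ᵥ v, ?_⟩
      rw [← hy, Matrix.mulVec_mulVec, Units.mul_inv, Matrix.one_mulVec]
    have h4 := hadd ((A - 1) *ᵥ w) w
    have h5 : (A - 1) *ᵥ w + w = A *ᵥ w := by
      rw [Matrix.sub_mulVec, Matrix.one_mulVec, sub_add_cancel]
    rw [h5, hinvA'] at h4
    exact left_eq_add.mp (by rw [add_comm]; exact h4)
  obtain ⟨Q₁, hQ₁⟩ := exists_quad J hJt halt
  -- average
  let Q : QuadraticForm F (ι → F) := (N : F)⁻¹ • ∑ k ∈ Finset.range N, Q₁.comp (Matrix.toLin' (A ^ k))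
  have hQ : ∀ v, Q v = (N : F)⁻¹ * ∑ k ∈ Finset.range N, Q₁ ((A ^ k) *ᵥ v) := by
    intro v
    simp only [Q, _root_.smul_apply, _root_.sum_apply, QuadraticMap.comp_apply, smul_eq_mul,
      Matrix.toLin'_apply]
  have hpow : ∀ k v w, ((A ^ k) *ᵥ v) ⬝ᵥ (J *ᵥ ((A ^ k) *ᵥ w)) = v ⬝ᵥ (J *ᵥ w) := by
    intro k
    induction k with
    | zero => intro v w; simp
    | succ k ih =>
      intro v w
      rw [pow_succ, ← Matrix.mulVec_mulVec, ← Matrix.mulVec_mulVec, ih, hinvA']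
  have hpolar : ∀ u v, QuadraticMap.polar Q u v = u ⬝ᵥ (J *ᵥ v) := by
    intro u v
    have h3 : ∀ k, QuadraticMap.polar Q₁ ((A ^ k) *ᵥ u) ((A ^ k) *ᵥ v) = u ⬝ᵥ (J *ᵥ v) := by
      intro k; rw [hQ₁, hpow]
    simp only [QuadraticMap.polar, hQ, Matrix.mulVec_add]
    rw [← mul_sub, ← mul_sub, ← Finset.sum_sub_distrib, ← Finset.sum_sub_distrib]
    have h4 : ∀ k ∈ Finset.range N, Q₁ ((A ^ k) *ᵥ u + (A ^ k) *ᵥ v) - Q₁ ((A ^ k) *ᵥ u) -
        Q₁ ((A ^ k) *ᵥ v) = u ⬝ᵥ (J *ᵥ v) := fun k _ => h3 k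
    rw [Finset.sum_congr rfl h4, Finset.sum_const, Finset.card_range, nsmul_eq_mul, ← mul_assoc,
      inv_mul_cancel₀ hN, one_mul]
  refine ⟨Q, ?_, fun v => ?_⟩
  · intro x hx
    obtain ⟨y, hy⟩ := hJu
    have h3 : J *ᵥ x = 0 := by
      apply dotProduct_eq_zero
      intro v
      rw [dotProduct_comm, hsymm, ← hpolar]
      exact hx v
    have h4 : x = ((y⁻¹ : (Matrix ι ι F)ˣ) : Matrix ι ι F) *ᵥ (J *ᵥ x) := by
      rw [← hy, Matrix.mulVec_mulVec, Units.inv_mul, Matrix.one_mulVec]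
    rw [h4, h3, Matrix.mulVec_zero]
  · rw [hQ, hQ]
    congr 1
    have h3 : ∀ k, (A ^ k) *ᵥ (A *ᵥ v) = (A ^ (k + 1)) *ᵥ v := by
      intro k; rw [Matrix.mulVec_mulVec, pow_succ]
    simp only [h3]
    have h5 := Finset.sum_range_succ' (fun k => Q₁ ((A ^ k) *ᵥ v)) N
    have h6 := Finset.sum_range_succ (fun k => Q₁ ((A ^ k) *ᵥ v)) N
    rw [h5] at h6
    simp only [hAN, pow_zero] at h6
    exact add_right_cancel h6

end H49.InvForm
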