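import Cfsg.Agent.Lib.H49.OrthAdj
import Cfsg.Agent.Lib.H48.QuadStd
import Cfsg.Agent.Lib.H18.MaxSing

set_option autoImplicit false
set_option linter.unusedSectionVars false

/-! Stabilisers of subspaces in orthogonal groups, and the parity homomorphism. -/

namespace H49.OrthStab

open QuadraticMap Matrix H49.OrthAdj H48.QuadSplit H18.MaxSing

variable {ι : Type} [Fintype ι] [DecidableEq ι] {F : Type*} [Field F]
  {Q : QuadraticForm F (ι → F)}

/-- image of a subspace -/
abbrev im (g : G Q) (U : Submodule F (ι → F)) : Submodule F (ι → F) :=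
  U.map (Matrix.mulVecLin (mt g))

theorem mt_inv_mulVec (g : G Q) (x : ι → F) : mt g⁻¹ *ᵥ (mt g *ᵥ x) = x := by
  rw [Matrix.mulVec_mulVec, ← mt_mul, inv_mul_cancel]
  exact mt_one_mulVec x

theorem mt_inj (g : G Q) : Function.Injective (Matrix.mulVecLin (mt g)) := by
  intro x y h
  rw [← mt_inv_mulVec g x, ← mt_inv_mulVec g y]
  exact congrArg _ h

theorem im_mul (g h : G Q) (U : Submodule F (ι → F)) : im (g * h) U = im g (im h U) := by
  rw [im, im, im, ← Submodule.map_comp, mt_mul, Matrix.mulVecLin_mul]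

theorem im_one (U : Submodule F (ι → F)) : im (1 : G Q) U = U := by
  rw [im]
  have : mt (1 : G Q) = 1 := rfl
  rw [this, Matrix.mulVecLin_one, Submodule.map_id]

theorem finrank_im (g : G Q) (U : Submodule F (ι → F)) :
    Module.finrank F (im g U) = Module.finrank F U :=
  (Submodule.equivMapOfInjective _ (mt_inj g) U).symm.finrank_eq

theorem ts_im (g : G Q) {U : Submodule F (ι → F)} (h : TS Q U) : TS Q (im g U) := by
  rintro _ ⟨x, hx, rfl⟩
  exact (isom g x).trans (h x hx)

theorem im_inf (g : G Q) (U W : Submodule F (ι → F)) : im g (U ⊓ W) = im g U ⊓ im g W :=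
  Submodule.map_inf _ (mt_inj g)

/-- stabiliser of a subspace -/
def St (U : Submodule F (ι → F)) : Subgroup (G Q) where
  carrier := {g | im g U = U}
  one_mem' := im_one U
  mul_mem' := by
    intro a b ha hb
    change im (a * b) U = U
    rw [im_mul, show im b U = U from hb]
    exact ha
  inv_mem' := by
    intro a ha
    change im a⁻¹ U = U
    conv_lhs => rw [← (show im a U = U from ha)]
    rw [← im_mul, inv_mul_cancel, im_one]

theorem mem_St {U : Submodule F (ι → F)} {g : G Q} : g ∈ St U ↔ im g U = U := Iff.rfl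

theorem mem_St_of_le {U : Submodule F (ι → F)} {g : G Q} (h : ∀ x ∈ U, mt g *ᵥ x ∈ U) :
    g ∈ St U := by
  rw [mem_St]
  apply Submodule.eq_of_le_of_finrank_eq
  · rintro _ ⟨x, hx, rfl⟩
    exact h x hx
  · exact finrank_im g U

theorem R_mem_St_of_mem {U : Submodule F (ι → F)} {v : ι → F} (hv : Q v ≠ 0) (h : v ∈ U) :
    R Q v hv ∈ St U := by
  refine mem_St_of_le fun x hx => ?_
  rw [R_mulVec]
  exact U.sub_mem hx (U.smul_mem _ h)

theorem R_mem_St_of_orth {U : Submodule F (ι → F)} {v : ι → F} (hv : Q v ≠ 0)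
    (h : ∀ u ∈ U, polar Q u v = 0) : R Q v hv ∈ St U := by
  refine mem_St_of_le fun x hx => ?_
  rw [R_mulVec, polar_comm, h x hx]
  simpa using hx

/-- norm of `e + b f` -/
theorem norm_pair {e f : ι → F} (he : Q e = 0) (hf : Q f = 0) (hef : polar Q e f = 1) (b : F) :
    Q (e + b • f) = b := by
  rw [QuadraticMap.map_add Q, QuadraticMap.map_smul, he, hf, polar_smul_right, hef]
  simp

theorem pair_mem_St {U : Submodule F (ι → F)} (hU : TS Q U) {e f : ι → F} (heU : e ∈ U)
    (hf : Q f = 0) (hef : polar Q e f = 1) (b c : F)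
    (hb : Q (e + b • f) ≠ 0) (hc : Q (e + c • f) ≠ 0) :
    R Q (e + b • f) hb * R Q (e + c • f) hc ∈ St U := by
  have he : Q e = 0 := hU e heU
  have hb' : Q (e + b • f) = b := norm_pair he hf hef b
  have hc' : Q (e + c • f) = c := norm_pair he hf hef c
  have hb0 : b ≠ 0 := by rw [← hb']; exact hb
  have hc0 : c ≠ 0 := by rw [← hc']; exact hc
  have hfe : polar Q f e = 1 := by rw [polar_comm]; exact hef
  have hee : polar Q e e = 0 := by rw [polar_self, he]; simp
  have hff : polar Q f f = 0 := by rw [polar_self, hf]; simp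
  refine mem_St_of_le fun x hx => ?_
  have hex : polar Q e x = 0 := polar_eq_zero hU heU hx
  have h1 : mt (R Q (e + b • f) hb * R Q (e + c • f) hc) *ᵥ x =
      x + (polar Q f x * (c * b⁻¹ - 1)) • e := by
    rw [mt_mul, ← Matrix.mulVec_mulVec, R_mulVec, R_mulVec, hb', hc']
    simp only [polar_add_left, polar_smul_left, polar_sub_right, polar_smul_right, polar_add_right,
      hex, hee, hff, hef, hfe, smul_eq_mul]
    ext i
    simp only [Pi.sub_apply, Pi.smul_apply, Pi.add_apply, smul_eq_mul]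
    field_simp
    ring
  rw [h1]
  exact U.add_mem hx (U.smul_mem _ heU)

/-- a totally singular subspace has dimension at most half -/
theorem ts_finrank (hQ : ND Q) {U : Submodule F (ι → F)} (h : TS Q U) :
    2 * Module.finrank F U ≤ Fintype.card ι := by
  have h1 := finrank_orth hQ U
  have h2 := Submodule.finrank_mono (le_orth h)
  rw [Module.finrank_fintype_fun_eq_card] at h1
  omega

theorem exists_nonsing_orth (hQ : ND Q) {U : Submodule F (ι → F)}
    (hU : 2 * Module.finrank F U < Fintype.card ι) : ∃ x, Q x ≠ 0 ∧ ∀ u ∈ U, polar Q u x = 0 := by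
  by_contra hcon
  push Not at hcon
  have h1 : TS Q (orth Q U) := by
    intro x hx
    by_contra h0
    obtain ⟨u, hu, hux⟩ := hcon x h0
    exact hux (hx u hu)
  have h2 := ts_finrank hQ h1
  have h3 := finrank_orth hQ U
  rw [Module.finrank_fintype_fun_eq_card] at h3
  omega

/-- lift of an isometry between subspaces -/
theorem exists_im_eq (hQ : (polarBilin Q).Nondegenerate) {U W : Submodule F (ι → F)}
    (e : U ≃ₗ[F] W) (he : ∀ u : U, Q (e u : ι → F) = Q (u : ι → F)) :
    ∃ g : G Q, im g U = W := by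
  obtain ⟨g, hg, hge⟩ := H48.QuadWitt.witt_extension hQ U (W.subtype.comp e.toLinearMap)
    (by
      rw [LinearMap.coe_comp]
      exact W.injective_subtype.comp e.injective) he
  obtain ⟨g', hg'⟩ := exists_coe Q g hg
  refine ⟨g', ?_⟩
  apply le_antisymm
  · rintro _ ⟨x, hx, rfl⟩
    change mt g' *ᵥ x ∈ W
    rw [hg', show g x = _ from hge ⟨x, hx⟩]
    exact (e ⟨x, hx⟩).2
  · intro w hw
    refine ⟨(e.symm ⟨w, hw⟩ : ι → F), (e.symm ⟨w, hw⟩).2, ?_⟩
    change mt g' *ᵥ _ = w
    rw [hg', hge]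
    simp

theorem exists_im_eq_ts (hQ : (polarBilin Q).Nondegenerate) {U W : Submodule F (ι → F)}
    (hU : TS Q U) (hW : TS Q W) (h : Module.finrank F U = Module.finrank F W) :
    ∃ g : G Q, im g U = W := by
  refine exists_im_eq hQ (LinearEquiv.ofFinrankEq U W h) fun u => ?_
  rw [hU u u.2, hW _ (Subtype.mem _)]

/-! ### Parity -/

variable {m : ℕ}

/-- the parity homomorphism -/
noncomputable def par (hQ : ND Q) (hm : Fintype.card ι = 2 * m) (U : Submodule F (ι → F)) (hU : TS Q U)
    (hUm : Module.finrank F U = m) : G Q →* ℤˣ where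
  toFun g := (-1) ^ (m - Module.finrank F ↥(U ⊓ im g U))
  map_one' := by
    rw [im_one, inf_idem, hUm, Nat.sub_self, pow_zero]
  map_mul' := by
    intro g h
    have hm' : Module.finrank F (ι → F) = 2 * m := by
      rw [Module.finrank_fintype_fun_eq_card, hm]
    have h1 := parity hQ hm' _ hU hUm (ts_im g hU) ((finrank_im g U).trans hUm)
      (ts_im (g * h) hU) ((finrank_im (g * h) U).trans hUm) rfl
    have h2 : Module.finrank F ↥(im g U ⊓ im (g * h) U) = Module.finrank F ↥(U ⊓ im h U) := by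
      rw [im_mul, ← im_inf, finrank_im]
    rw [h2] at h1
    have h3 : ((-1 : ℤˣ) ^ (m - Module.finrank F ↥(U ⊓ im g U))) *
        (-1) ^ (m - Module.finrank F ↥(U ⊓ im h U)) *
        (-1) ^ (m - Module.finrank F ↥(U ⊓ im (g * h) U)) = 1 := by
      rw [← pow_add, ← pow_add]
      exact h1.neg_one_pow
    have h4 : ∀ a b c : ℤˣ, a * b * c = 1 → c = a * b := by decide
    exact h4 _ _ _ h3

theorem par_eq_one_iff (hQ : ND Q) (hm : Fintype.card ι = 2 * m) (U : Submodule F (ι → F))
    (hU : TS Q U) (hUm : Module.finrank F U = m) (g : G Q) :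
    par hQ hm U hU hUm g = 1 ↔ Even (m - Module.finrank F ↥(U ⊓ im g U)) := by
  change (-1 : ℤˣ) ^ (m - Module.finrank F ↥(U ⊓ im g U)) = 1 ↔ _
  rcases Nat.even_or_odd (m - Module.finrank F ↥(U ⊓ im g U)) with h | h
  · rw [h.neg_one_pow]
    exact ⟨fun _ => h, fun _ => rfl⟩
  · rw [h.neg_one_pow]
    constructor
    · intro h1; exact absurd h1 (by decide)
    · intro h1; exact absurd h1 (Nat.not_even_iff_odd.mpr h)

theorem par_R (hQ : ND Q) (hm : Fintype.card ι = 2 * m) (U : Submodule F (ι → F)) (hU : TS Q U)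
    (hUm : Module.finrank F U = m) (v : ι → F) (hv : Q v ≠ 0) :
    par hQ hm U hU hUm (R Q v hv) = -1 := by
  have hm' : Module.finrank F (ι → F) = 2 * m := by
    rw [Module.finrank_fintype_fun_eq_card, hm]
  have hv0 : v ≠ 0 := by rintro rfl; exact hv (QuadraticMap.map_zero Q)
  have h1 : U ⊓ im (R Q v hv) U = U ⊓ orth Q (F ∙ v) := by
    apply le_antisymm
    · rintro x ⟨hx, y, hy, hyx⟩
      refine ⟨hx, ?_⟩
      change mt (R Q v hv) *ᵥ y = x at hyx
      rw [R_mulVec] at hyx
      have h2 : ((Q v)⁻¹ * polar (⇑Q) v y) • v ∈ U := by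
        have : ((Q v)⁻¹ * polar (⇑Q) v y) • v = y - x := by rw [← hyx]; abel
        rw [this]; exact U.sub_mem hy hx
      have h3 : (Q v)⁻¹ * polar (⇑Q) v y = 0 := by
        by_contra h0
        have h4 : v ∈ U := by
          have := U.smul_mem ((Q v)⁻¹ * polar (⇑Q) v y)⁻¹ h2
          rwa [smul_smul, inv_mul_cancel₀ h0, one_smul] at this
        exact hv (hU v h4)
      rw [h3, zero_smul, sub_zero] at hyx
      rw [← hyx]
      intro u hu
      obtain ⟨c, rfl⟩ := Submodule.mem_span_singleton.mp hu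
      rw [polar_smul_left, (mul_eq_zero.mp h3).resolve_left (inv_ne_zero hv), smul_zero]
    · rintro x ⟨hx, hxo⟩
      refine ⟨hx, x, hx, ?_⟩
      change mt (R Q v hv) *ᵥ x = x
      rw [R_mulVec, hxo v (Submodule.mem_span_singleton_self v)]
      simp
  have h2 := finrank_inf_orth hQ hm' hU hUm (H := F ∙ v)
  have h3 : U ⊓ (F ∙ v) = ⊥ := by
    rw [← disjoint_iff, Submodule.disjoint_def]
    intro x hx hxv
    obtain ⟨c, rfl⟩ := Submodule.mem_span_singleton.mp hxv
    by_contra h0
    have hc : c ≠ 0 := by rintro rfl; simp at h0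
    apply hv
    have := hU _ hx
    rw [QuadraticMap.map_smul, smul_eq_mul] at this
    exact (mul_eq_zero.mp this).resolve_left (mul_ne_zero hc hc)
  rw [h3, finrank_bot, finrank_span_singleton hv0] at h2
  change (-1 : ℤˣ) ^ (m - Module.finrank F ↥(U ⊓ im (R Q v hv) U)) = -1
  rw [h1, show m - Module.finrank F ↥(U ⊓ orth Q (F ∙ v)) = 1 by omega, pow_one]

/-- char 2: a homomorphism nontrivial on a reflection detects the commutator subgroup -/
theorem mem_of_hom_even [Fintype F] [CharP F 2] (hQ : (polarBilin Q).Nondegenerate)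
    (h : Fintype.card F ≠ 2 ∨ Fintype.card ι ≠ 4) {A : Type*} [CommGroup A] (π : G Q →* A)
    (v : ι → F) (hv : Q v ≠ 0) (hπ : π (R Q v hv) ≠ 1) (g : G Q) (hg : π g = 1) :
    g ∈ commutator (G Q) := by
  obtain ⟨s, hs, hgs⟩ := adjust_even Q hQ h (Subgroup.zpowers (R Q v hv)) v hv
    (Subgroup.mem_zpowers _) g
  have hs' : s = 1 ∨ s = R Q v hv := by
    obtain ⟨k, rfl⟩ := Subgroup.mem_zpowers_iff.mp hs
    have h2 : (R Q v hv) ^ (2 : ℤ) = 1 := by
      rw [_root_.zpow_ofNat, pow_two, R_mul_self]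
    rcases Int.even_or_odd' k with ⟨m, rfl | rfl⟩
    · left; rw [_root_.zpow_mul, h2, _root_.one_zpow]
    · right; rw [_root_.zpow_add, _root_.zpow_mul, h2, _root_.one_zpow, _root_.zpow_one, one_mul]
  rcases hs' with rfl | rfl
  · rwa [mul_one] at hgs
  · exfalso
    have h3 := hom_commutator π hgs
    rw [map_mul, hg, one_mul] at h3
    exact hπ h3

/-- odd characteristic, two signs suffice -/
theorem mem_of_th2 [Finite F] (h2 : (2 : F) ≠ 0) (hQ : (polarBilin Q).Nondegenerate)
    (hd : 2 ≤ Fintype.card ι) (Rp : H17.OrthOmega.Reps F) (g : G Q)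
    (ha : th Q Rp.c₁ g = 1) (hb : th Q Rp.c₂ g = 1) : g ∈ commutator (G Q) := by
  rw [← H17.OrthTrans2.mem_commutator_equiv (H17.OrthTrans.equiv Q)]
  exact H17.OrthOmega.mem_commutator_of_theta h2 Q Rp hQ (by simpa using hd) _ ha hb

end H49.OrthStab
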